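import Mathlib
import Cfsg.Agent.Class.Max.C3Fm
import Cfsg.Agent.Class.Max.Bridge

/-!
Extension field subgroups containing Eichler maps of the ground field: `GU_m(q)` in `Ω_{2m}(q)`.
Lifting a form to an extension field.
-/

set_option autoImplicit false
set_option linter.unusedSectionVars false

namespace Cfsg.Agent.Class.Max

open Module

namespace Fm

section Inv

variable {K V : Type*} [Field K] [AddCommGroup V] [Module K V] {Ψ : Fm K V}

theorem smul_mem_of_invariant {Y : Submodule K V} (A : AddSubgroup V)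
    (hA : ∀ e ∈ Y, ∀ w ∈ Y, ∀ c, Ψ.Valid e w c → ∀ a ∈ A, Ψ.ef e w c a ∈ A) {u s : V} (hu : u ∈ A)
    (hs : s ∈ Y) (hs0 : Ψ.Q s = 0) (hsu : Ψ.B s u ≠ 0)
    (hw : (∃ w ∈ Y, ∃ w' ∈ Y, Ψ.B s w = 0 ∧ Ψ.B s w' = 0 ∧ Ψ.B w' w ≠ 0) ∨ ∀ c, Ψ.π c = 0)
    (k : K) : k • s ∈ A := by
  rcases hw with ⟨w, hw, w', hw', h1, h2, h3⟩ | hπ
  · obtain ⟨c, hv⟩ := exists_valid hs0 h1
    have e1 := A.sub_mem (hA s hs w hw c hv u hu) hu
    set b := Ψ.σ (-(Ψ.ε * k) / (Ψ.B s u * Ψ.B w' w)) with hb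
    obtain ⟨c', hv'⟩ := exists_valid hs0 (w := b • w') (by rw [map_smul, h2, smul_zero])
    have e2 := A.sub_mem (hA s hs _ (Y.smul_mem b hw') c' hv' _ e1) e1
    rw [ef_apply_of_perp' (by rw [map_sub, hv.B_ef, sub_self]), sub_sub_cancel_left] at e2
    convert e2 using 1
    rw [← neg_smul]
    congr 1
    have := div_mul_cancel₀ (-(Ψ.ε * k)) (mul_ne_zero hsu h3)
    rw [hb, Ψ.B_smul_left, Ψ.invol]
    simp only [ef, Ψ.bsimp, Ψ.perp_symm h2]
    linear_combination Ψ.ε * this - k * Ψ.eps_sq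
  · have hv : Ψ.Valid s 0 (-(Ψ.ε * k) / Ψ.B s u) := ⟨hs0, map_zero _, by rw [hπ, Ψ.Q_zero]⟩
    convert A.sub_mem (hA s hs 0 Y.zero_mem _ hv u hu) hu using 1
    simp only [ef, Ψ.bsimp, div_mul_cancel₀ _ hsu, zero_add, mul_neg, ← mul_assoc, Ψ.eps_sq]
    module

theorem mem_of_invariant {Y : Submodule K V} (A : AddSubgroup V)
    (hA : ∀ e ∈ Y, ∀ w ∈ Y, ∀ c, Ψ.Valid e w c → ∀ a ∈ A, Ψ.ef e w c a ∈ A) {u s : V} (hu : u ∈ A)
    (hs : s ∈ Y) (hs0 : Ψ.Q s = 0) (hsu : Ψ.B s u ≠ 0) (hk : ∀ k : K, k • s ∈ A) {y : V}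
    (hy : y ∈ Y) (hsy : Ψ.B s y = 0) : y ∈ A := by
  obtain ⟨c, hv⟩ := exists_valid hs0 (w := (Ψ.B s u)⁻¹ • y) (by rw [map_smul, hsy, smul_zero])
  have := A.add_mem (A.sub_mem (hA s hs _ (Y.smul_mem _ hy) c hv u hu) hu)
    (hk (Ψ.ε * (Ψ.B ((Ψ.B s u)⁻¹ • y) u + c * Ψ.B s u)))
  convert this using 1
  rw [ef, smul_inv_smul₀ hsu]; abel

/-- Irreducibility on additive subgroups in small dimension. -/
theorem le_of_invariant₃ {Y : Submodule K V} (A : AddSubgroup V)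
    (hA : ∀ e ∈ Y, ∀ w ∈ Y, ∀ c, Ψ.Valid e w c → ∀ a ∈ A, Ψ.ef e w c a ∈ A) {u s : V} (hu : u ∈ A)
    (huY : u ∈ Y) (hs : s ∈ Y) (hs0 : Ψ.Q s = 0) (hsu : Ψ.B s u ≠ 0)
    (hw : (∃ w ∈ Y, ∃ w' ∈ Y, Ψ.B s w = 0 ∧ Ψ.B s w' = 0 ∧ Ψ.B w' w ≠ 0) ∨ ∀ c, Ψ.π c = 0) :
    ∀ y ∈ Y, y ∈ A := by
  have k1 := smul_mem_of_invariant A hA hu hs hs0 hsu hw
  obtain ⟨f, hf, hf0, hsf⟩ := exists_partner hs hs0 ⟨u, huY, hsu⟩
  have hfs := B_eq_eps hsf
  have k2 := smul_mem_of_invariant A hA (by simpa using k1 1) hf hf0 (hfs ▸ Ψ.eps_ne)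
    (hw.imp_left fun ⟨w, hw, w', hw', h1, h2, h3⟩ =>
      ⟨w - (Ψ.ε * Ψ.B f w) • s, Y.sub_mem hw (Y.smul_mem _ hs),
        w' - (Ψ.ε * Ψ.B f w') • s, Y.sub_mem hw' (Y.smul_mem _ hs),
        by simp only [Ψ.bsimp, hfs]; linear_combination -Ψ.B f w * Ψ.eps_sq,
        by simp only [Ψ.bsimp, hfs]; linear_combination -Ψ.B f w' * Ψ.eps_sq,
        by simpa [h1, Ψ.perp_symm h2, Ψ.B_self hs0] using h3⟩)
  intro y hy
  have := A.add_mem (mem_of_invariant A hA hu hs hs0 hsu k1 (y := y - Ψ.B s y • f)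
    (Y.sub_mem hy (Y.smul_mem _ hf)) (by simp [hsf])) (k2 (Ψ.B s y))
  simpa using this

end Inv

variable {F K V : Type*} [Field F] [Field K] [Algebra F K] [AddCommGroup V] [Module F V]
  [Module K V] [IsScalarTower F K V]
variable {Φ : Fm F V} {Ψ : Fm K V} {T : Dual F K} {M : Subgroup (V ≃ₗ[F] V)}

theorem PA_zero : PA Φ Ψ M 0 := fun w _ => by
  obtain ⟨c, hv⟩ := exists_valid (Φ := Φ) (w := w) Φ.Q_zero (by simp)
  exact ⟨c, hv, full_zero w c hv⟩

variable (Φ M) in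
/-- The vectors `w` with an Eichler map `E(e, w, c)` in `M`. -/
def Aset {e : V} (he : Φ.Q e = 0) : AddSubgroup V where
  carrier := {w | Φ.InA M e w}
  zero_mem' := inA_zero he
  add_mem' := InA.add
  neg_mem' := InA.neg

namespace Tr

variable [Finite V] [Finite K] (h : Tr Φ Ψ T) (hH : GamL F K V ⊓ Φ.EG ≤ M)
include h hH

theorem PA_conj {e : V} (hP : PA Φ Ψ M e) {g : V ≃ₗ[K] V} (hg : g ∈ Ψ.EG) : PA Φ Ψ M (g e) :=
  fun w hw => by
    have hI := Ψ.EG_le_Iso hg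
    have := (hP (g⁻¹ w) (by rw [Iso.B_inv hI, hw])).conj (hH (h.res_EG hg)) (h.res_Iso hI)
    rwa [res_apply, res_apply, app_inv_app] at this

theorem PA_all (hd : Ψ.d + 2 ≤ finrank K V) {e : V} (he : Ψ.Q e = 0) (h0 : e ≠ 0)
    (hP : PA Φ Ψ M e) (s : V) (hs : Ψ.Q s = 0) : PA Φ Ψ M s := by
  by_cases hs0 : s = 0
  · rw [hs0]; exact PA_zero
  obtain ⟨g, hg, rfl⟩ := move_EG hd h0 hs0 (hs.trans he.symm)
  exact h.PA_conj hH hP hg

theorem PA_of_notMem (hd : Ψ.d + 2 ≤ finrank K V) (h5 : 5 ≤ finrank K V ∨ ∀ c, Ψ.π c = 0) {e v : V}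
    (he : Ψ.Q e = 0) (h0 : e ≠ 0) (hZ : ∀ k : K, Φ.InA M e (k • e)) (hv : Φ.InA M e v)
    (hv' : v ∉ pt F K e) : PA Φ Ψ M e := by
  have hA : ∀ s ∈ LinearMap.ker (Ψ.B e), ∀ w ∈ LinearMap.ker (Ψ.B e), ∀ c, Ψ.Valid s w c →
      ∀ a ∈ Aset Φ M (h.Q_zero he), Ψ.ef s w c a ∈ Aset Φ M (h.Q_zero he) := by
    intro s hs w hw c hc a ha
    obtain ⟨t, ht, hI, et⟩ := h.exists_eich hH hc
    have := InA.conj ha ht hI
    rwa [et, et, ef_apply_of_perp (Ψ.perp_symm hs) (Ψ.perp_symm hw)] at this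
  by_cases hb : Ψ.B e v = 0
  · obtain ⟨f, hf, hef⟩ := exists_partner' he h0
    have hfe : Ψ.B f e ≠ 0 := Ψ.ne_symm (hef ▸ one_ne_zero)
    have nd : ∀ s, Ψ.B f s = 0 → s ≠ 0 → ∃ y ∈ LinearMap.ker (Ψ.B e), Ψ.B s y ≠ 0 :=
      fun s h1 h2 => by
        by_contra hc
        push Not at hc
        obtain ⟨c, rfl⟩ := Ψ.exists_smul_of_perp hc
        rw [Ψ.B_smul_right, mul_eq_zero] at h1
        exact h2 (by rw [h1.resolve_right hfe, zero_smul])
    obtain ⟨z, -, z0, z1, z2⟩ := Ψ.exists_sing_ker [Ψ.B e, Ψ.B f] ⊤ (by simpa using hd)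
    obtain ⟨s, hs, s0, s1⟩ := exists_sing_not_perp (LinearMap.ker (Ψ.B e)) (u := v)
      (z2 (Ψ.B e) (by simp)) z1 (nd z (z2 (Ψ.B f) (by simp)) z0) (by
        by_contra hc
        push Not at hc
        obtain ⟨c, hc⟩ := Ψ.exists_smul_of_perp hc
        exact hv' (hc ▸ smul_mem_pt c e))
    refine fun w hw => le_of_invariant₃ (Aset Φ M (h.Q_zero he)) hA hv hb hs s0 (Ψ.ne_symm s1)
      (h5.imp_left fun h5 => ?_) w hw
    obtain ⟨w, -, w0, w1⟩ := exists_ne_zero_ker [Ψ.B e, Ψ.B f, Ψ.B s, Ψ.B v] (⊤ : Submodule K V)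
      (by simp; omega)
    obtain ⟨y, hy, hy'⟩ := nd w (w1 (Ψ.B f) (by simp)) w0
    refine ⟨y - (Ψ.B s y / Ψ.B s v) • v, Submodule.sub_mem _ hy (Submodule.smul_mem _ _ hb), w,
      w1 (Ψ.B e) (by simp), by simp [Ψ.ne_symm s1], w1 (Ψ.B s) (by simp), ?_⟩
    simpa [Ψ.perp_symm (w1 (Ψ.B v) (by simp))] using hy'
  · exact fun w hw => mem_of_invariant (Aset Φ M (h.Q_zero he)) hA hv (Ψ.B_self he) he hb hZ hw hw

theorem PA_of_not_pm (hM : M ≤ Φ.Iso) (hd : Ψ.d + 2 ≤ finrank K V)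
    (h5 : 5 ≤ finrank K V ∨ ∀ c, Ψ.π c = 0) (hsing : ∀ x, Φ.Q x = 0 → Ψ.Q x = 0)
    (hZ : ∀ s, Ψ.Q s = 0 → ∀ k : K, Φ.InA M s (k • s)) {g : V ≃ₗ[F] V} (hg : g ∈ M) {e : V}
    (he : Ψ.Q e = 0) (hp : ¬ Pm K g e) : ∀ s, Ψ.Q s = 0 → PA Φ Ψ M s := by
  obtain ⟨k, hk⟩ := not_forall.1 hp
  have h1 : Ψ.Q (g e) = 0 := hsing _ (by rw [Iso.Q (hM hg), h.Q_zero he])
  have h0 : g e ≠ 0 := fun e' => hk (by
    rw [g.map_eq_zero_iff.1 e', smul_zero]; exact self_mem_pt _)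
  exact h.PA_all hH hd h1 h0
    (h.PA_of_notMem hH hd h5 h1 h0 (hZ _ h1) ((hZ e he k).conj hg (hM hg)) hk)

end Tr

/-! ### Lifting forms -/

section Lift

variable (Φ)

theorem exists_adjoint [Nontrivial V] (hac : ∀ k : K, ∃ k' : K, ∀ u v, Φ.B (k • u) v = Φ.B u (k' • v)) :
    ∃ s : K →+* K, (∀ k, s (s k) = k) ∧ ∀ (k : K) u v, Φ.B (k • u) v = Φ.B u (s k • v) := by
  choose s hs using hac
  obtain ⟨x, hx⟩ := exists_ne (0 : V)
  have key : ∀ a b : K, (∀ u v, Φ.B u (a • v) = Φ.B u (b • v)) → a = b := fun a b hab =>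
    smul_left_injective K hx (Φ.eq_of_B_eq fun z => by rw [Φ.symm, hab, ← Φ.symm])
  refine ⟨⟨⟨⟨s, key _ _ fun u v => by rw [← hs, one_smul, one_smul]⟩,
    fun a b => key _ _ fun u v => by rw [← hs, mul_smul, hs, hs, smul_smul, mul_comm]⟩,
    key _ _ fun u v => by rw [← hs]; simp,
    fun a b => key _ _ fun u v => by rw [← hs, add_smul, add_smul, Φ.B_add_left, map_add, hs, hs]⟩,
    fun k => key _ _ fun u v => ?_, hs⟩
  change Φ.B u (s (s k) • v) = _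
  rw [← hs, Φ.symm v, ← hs, ← Φ.symm]

theorem exists_lift [FiniteDimensional F K] (hT : T ≠ 0) (s : K →+* K)
    (hs : ∀ (k : K) u v, Φ.B (k • u) v = Φ.B u (s k • v)) :
    ∃ B : V →ₛₗ[s] V →ₗ[K] K, ∀ u v, Φ.B u v = T (B u v) := by
  choose χ hχ using fun u => exists_dual_lift hT (Φ.B u)
  have key : ∀ χ χ' : Dual K V, (∀ v, T (χ v) = T (χ' v)) → χ = χ' := fun χ χ' e =>
    LinearMap.ext fun v => sub_eq_zero.1 (eq_zero_of_forall_mul hT fun c => by
      rw [mul_sub, map_sub, ← smul_eq_mul, ← smul_eq_mul, ← map_smul, ← map_smul, e, sub_self])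
  refine ⟨⟨⟨χ, fun u u' => key _ _ fun v => ?_⟩, fun k u => key _ _ fun v => ?_⟩, hχ⟩
  · rw [← hχ, Φ.B_add_left, hχ, hχ, LinearMap.add_apply, map_add]
  · rw [← hχ, hs, hχ, map_smul, LinearMap.smul_apply]

variable {Φ}

theorem lift_symm (hT : T ≠ 0) {s : K →+* K} (hs2 : ∀ k, s (s k) = k) {B : V →ₛₗ[s] V →ₗ[K] K}
    (hB : ∀ u v, Φ.B u v = T (B u v)) {η : K} (hη : ∀ b, T (η * s b) = Φ.ε * Φ.σ (T b)) (x y : V) :
    B y x = η * s (B x y) :=
  sub_eq_zero.1 (eq_zero_of_forall_mul hT fun c => by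
    rw [mul_sub, map_sub, ← smul_eq_mul, ← map_smul, ← hB, Φ.symm, hB, ← hη, map_smulₛₗ,
      LinearMap.smul_apply, smul_eq_mul, map_mul s, hs2, mul_left_comm, sub_self])

theorem lift_nondeg {s : K →+* K} {B : V →ₛₗ[s] V →ₗ[K] K} (hB : ∀ u v, Φ.B u v = T (B u v))
    (x : V) (hx : ∀ y, B x y = 0) : x = 0 :=
  Φ.nondeg x fun y => by rw [hB, hx, map_zero]

theorem mem_range_of_fix (hr : (finrank F K).Prime) {s : K →+* K}
    (hs : ∀ c : F, s (algebraMap F K c) = algebraMap F K c) (hne : s ≠ RingHom.id K) {a : K}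
    (ha : s a = a) : ∃ c : F, algebraMap F K c = a := by
  let S : Subalgebra F K :=
    { carrier := {a | s a = a}
      mul_mem' := fun {a b} ha hb => by
        change s _ = _
        rw [map_mul, ha, hb]
      add_mem' := fun {a b} ha hb => by
        change s _ = _
        rw [map_add, ha, hb]
      algebraMap_mem' := hs }
  rcases (Subalgebra.isSimpleOrder_of_finrank_prime F K hr).eq_bot_or_eq_top S with h | h
  · exact Algebra.mem_bot.1 (h ▸ (ha : a ∈ S))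
  · refine absurd (RingHom.ext fun a => ?_) hne
    exact (h ▸ Algebra.mem_top : a ∈ S)

theorem adjoint_algebraMap [Nontrivial V] {s : K →+* K}
    (hs : ∀ (k : K) u v, Φ.B (k • u) v = Φ.B u (s k • v)) (c : F) :
    s (algebraMap F K c) = algebraMap F K (Φ.σ c) := by
  obtain ⟨x, hx⟩ := exists_ne (0 : V)
  refine smul_left_injective K hx (Φ.eq_of_B_eq fun z => ?_)
  dsimp only
  rw [Φ.symm, ← hs, algebraMap_smul, algebraMap_smul, Φ.symm z, Φ.B_smul_left, Φ.B_smul_right]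

/-- The trace of a quadratic extension given by an involution. -/
theorem exists_trace (hr : (finrank F K).Prime) {s : K →+* K} (hs2 : ∀ k, s (s k) = k)
    (hs : ∀ c : F, s (algebraMap F K c) = algebraMap F K c) (hne : s ≠ RingHom.id K) :
    ∃ T : Dual F K, T ≠ 0 ∧ ∀ a, algebraMap F K (T a) = a + s a := by
  choose t ht using fun a : K => mem_range_of_fix hr hs hne (a := a + s a)
    (by rw [map_add, hs2, add_comm])
  have inj := (algebraMap F K).injective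
  refine ⟨⟨⟨t, fun a b => inj ?_⟩, fun c a => inj ?_⟩, fun h0 => hne (RingHom.ext fun a => ?_), ht⟩
  · rw [map_add, ht, ht, ht, map_add]; ring
  · rw [RingHom.id_apply, smul_eq_mul, map_mul, ht, ht, Algebra.smul_def, map_mul, hs]; ring
  · have e : ∀ a, a + s a = 0 := fun a => by
      rw [← ht, show t a = 0 from LinearMap.congr_fun h0 a, map_zero]
    have e1 := e 1
    rw [map_one] at e1
    change s a = a
    linear_combination e a - a * e1

end Lift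

/-- The normaliser of a quadratic extension over which the quadratic form is a hermitian norm
form is maximal in `Ω`. -/
theorem uo_isMaximalIn [Finite V] [Finite K] (hσ : ∀ a, Φ.σ a = a) (hε : Φ.ε = 1)
    (hπ : ∀ c, Φ.π c = c) (hr : (finrank F K).Prime) (h5 : 5 ≤ finrank K V)
    (hac : ∀ k : K, ∃ k' : K, ∀ u v, Φ.B (k • u) v = Φ.B u (k' • v))
    (hnsa : ¬ ∀ (k : K) u v, Φ.B (k • u) v = Φ.B u (k • v))
    (hsc : ∀ k : K, ∃ c : F, ∀ v, Φ.Q (k • v) = c * Φ.Q v) :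
    Geo.IsMaximalIn Φ.EG (GamL F K V ⊓ Φ.EG) := by
  have : Nontrivial V := Module.nontrivial_of_finrank_pos (R := K) (by omega)
  have : FiniteDimensional F K := Module.Finite.of_finite
  obtain ⟨s, hs2, hs⟩ := Φ.exists_adjoint hac
  have hne : s ≠ RingHom.id K := fun e => hnsa (by simpa [e] using hs)
  have hsF : ∀ c : F, s (algebraMap F K c) = algebraMap F K c := fun c => by
    rw [adjoint_algebraMap hs, hσ]
  obtain ⟨T, hT, eT⟩ := exists_trace hr hs2 hsF hne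
  obtain ⟨B, hB⟩ := Φ.exists_lift hT s hs
  have hS : ∀ x y, B y x = s (B x y) := fun x y => by
    rw [lift_symm hT hs2 hB (η := 1) (fun b => (algebraMap F K).injective (by
      rw [hε, hσ, one_mul, one_mul, eT, eT, hs2, add_comm])), one_mul]
  let Ψ := fmHerm hne hs2 B hS (lift_nondeg hB)
  choose c hc using hsc
  have e1 : ∀ (k : K) x, T (k * B x x) = (c (1 + k) - 1 - c k) * Φ.Q x := fun k x => by
    have := Φ.add x (k • x)
    rw [hπ, hB, map_smul, smul_eq_mul, hc, show x + k • x = (1 + k) • x by module, hc] at this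
    linear_combination -this
  obtain ⟨k₀, hk₀⟩ : ∃ k, c (1 + k) - 1 - c k ≠ 0 := by
    by_contra hcon
    push Not at hcon
    have e2 : ∀ x, B x x = 0 := fun x => eq_zero_of_forall_mul hT fun k => by
      rw [e1, hcon, zero_mul]
    obtain ⟨x, hx⟩ := exists_ne (0 : V)
    obtain ⟨y, hy⟩ := Ψ.exists_B_ne hx
    obtain ⟨k, hk⟩ := DFunLike.ne_iff.1 hne
    have e3 : ∀ k : K, k * B x y + s k * B y x = 0 := fun k => by
      simpa [e2, add_comm] using e2 (x + k • y)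
    have e4 := e3 1
    rw [map_one] at e4
    refine hk (mul_right_cancel₀ (b := B x y) hy ?_)
    change s k * B x y = k * B x y
    linear_combination s k * e4 - e3 k
  have h : Tr Φ Ψ T :=
    { B := hB
      ne := hT
      Q := fun x y e => mul_left_cancel₀ hk₀ (by
        rw [← e1, ← e1, show B x x = B y y from e])
      sing := fun x e => e
      prime := hr }
  obtain ⟨e, -, h0, he⟩ := Ψ.iso ⊤ (by rw [finrank_top]; exact le_trans (by decide : 2 ≤ 5) h5)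
  refine h.isMaximalIn_of_pm (by omega) he h0 fun M h1 h2 h3 g hg x hx => ?_
  by_contra hp
  have hM := h2.trans Φ.EG_le_Iso
  refine h3 (h.EG_le_of_PA' (by omega) hM (h.PA_of_not_pm h1 hM (le_trans (by decide : 2 + 2 ≤ 5) h5)
    (Or.inl h5) (fun x hx => eq_zero_of_forall_mul hT fun k => (e1 k x).trans (by rw [hx, mul_zero]))
    (fun y hy k => ?_) hg hx hp) he h0 fun c hc => ⟨0, by rw [← hπ c, hc]; simp⟩)
  have hv : Φ.Valid y (k • y) 0 := valid_zero (h.Q_zero hy) (h.B_zero (by simp [Ψ.B_self hy]))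
    (h.Q_zero (Ψ.Q_smul_zero hy k))
  have e5 : ∀ v, hv.eich v = v + ((k - s k) * B y v) • y := fun v => by
    rw [hv.eich_apply, ef, hε, hs, hB, hB, zero_mul, add_zero, one_mul, ← algebraMap_smul K (T _),
      ← algebraMap_smul K (T _), eT, eT]
    simp only [map_smul, smul_eq_mul, map_mul, hs2]
    module
  exact ⟨0, hv, hv.eich, h1 ⟨mem_GamL_of_linear fun a v => by
    rw [e5, e5, map_smul, smul_eq_mul]; module, hv.eich_mem⟩, hv.eich_apply⟩

end Fm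

section Bridge

open Matrix

variable {F : Type*} [Field F] {ι : Type} [Fintype ι] [DecidableEq ι]

theorem normalizer_isMaximalIn_of [Nonempty ι] {Φ : Fm F (ι → F)} {G : Subgroup (GL ι F)}
    (hG : ∀ g, g ∈ G ↔ glEquiv ι F g ∈ Φ.EG) {K : Subalgebra F (Matrix ι ι F)} {r : ℕ}
    (hK : Geo.IsFieldSubalgebra r K)
    (h : letI := (isField_of hK).toField
      Geo.IsMaximalIn Φ.EG (GamL F K (ι → F) ⊓ Φ.EG)) :
    Geo.IsMaximalIn G (Geo.subalgebraNormalizer K ⊓ G) :=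
  letI := (isField_of hK).toField
  isMaximalIn_of_equiv (glEquiv ι F) (H' := GamL F K (ι → F) ⊓ Φ.EG) hG
    (fun g => and_congr (mem_subalgebraNormalizer_iff K g) (hG g)) h

theorem mul_finrank_eq [Nonempty ι] {K : Subalgebra F (Matrix ι ι F)} {r : ℕ}
    (hK : Geo.IsFieldSubalgebra r K) :
    letI := (isField_of hK).toField
    r * finrank K (ι → F) = Fintype.card ι := by
  let := (isField_of hK).toField
  have h1 := Module.finrank_mul_finrank F K (ι → F)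
  rwa [hK.finrank_eq, Module.finrank_fintype_fun_eq_card] at h1

/-- `GU_m(q)` in `Ω_{2m}(q)`, `m ≥ 5`. -/
theorem uo_normalizer_isMaximalIn [Finite F] (hn : 9 ≤ Fintype.card ι) {Q : (ι → F) → F}
    (hQ : Geo.IsNondegenerateQuadraticForm Q) {K : Subalgebra F (Matrix ι ι F)}
    (hK : Geo.IsFieldSubalgebra 2 K) (hac : Geo.IsAdjointClosedFor (QuadraticMap.polar Q) K)
    (hnsa : ¬ Geo.IsSelfAdjointFor (QuadraticMap.polar Q) K)
    (hsc : ∀ k ∈ K, ∃ c : F, ∀ v, Q (k *ᵥ v) = c * Q v) :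
    Geo.IsMaximalIn (Geo.omegaGL Q) (Geo.subalgebraNormalizer K ⊓ Geo.omegaGL Q) := by
  have : Nonempty ι := Fintype.card_pos_iff.1 (by omega)
  refine normalizer_isMaximalIn_of (mem_omegaGL_iff hQ (by omega)) hK ?_
  let := (isField_of hK).toField
  have h1 := mul_finrank_eq hK
  have hr : (finrank F K).Prime := hK.finrank_eq ▸ Nat.prime_two
  refine Fm.uo_isMaximalIn (fun _ => rfl) rfl (fun _ => rfl) hr
    (by omega) (fun k => ?_) (fun h => hnsa fun k hk => h ⟨k, hk⟩) fun k => hsc k k.2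
  obtain ⟨k', h2, h3⟩ := hac k k.2
  exact ⟨⟨k', h2⟩, h3⟩

end Bridge

end Cfsg.Agent.Class.Max
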